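import Mathlib

/-!
# Projective representations with vanishing traces

`NDRep N α`: `α : Q → End W` is a projective representation of `Q` with cocycle in the `N`-th roots
of unity, whose traces vanish off the identity, and `#Q = (dim W)²`.

For an abelian group `V` with an action of `Q`, such a representation is extended to the group of
triples `(a, χ, x)`, `a ∈ V`, `χ` an additive character of `V`, `x ∈ Q`, acting on functions `V → W`.
-/

namespace Cfsg.Agent.Lib.CentralType.Rep

open Finset

/-- Projective representations with trace zero off the identity and of the right degree. -/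
structure NDRep {Q : Type*} [Group Q] {W : Type*} [AddCommGroup W] [Module ℂ W] (N : ℕ)
    (α : Q → Module.End ℂ W) : Prop where
  one : α 1 = 1
  mul : ∀ x y, ∃ z : ℂ, z ^ N = 1 ∧ α x * α y = z • α (x * y)
  tr : ∀ x, x ≠ 1 → LinearMap.trace ℂ W (α x) = 0
  card : Nat.card Q = Module.finrank ℂ W ^ 2

section Trace

variable {V W : Type*} [Fintype V] [DecidableEq V] [AddCommGroup W] [Module ℂ W]
  [FiniteDimensional ℂ W]

theorem trace_weighted (lam : V → ℂ) (σ : V → V) (A : Module.End ℂ W)
    (T : Module.End ℂ (V → W)) (hT : ∀ f v, T f v = lam v • A (f (σ v))) :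
    LinearMap.trace ℂ (V → W) T =
      ∑ v, (if σ v = v then lam v else 0) * LinearMap.trace ℂ W A := by
  have h1 : T = ∑ v, (LinearMap.single ℂ (fun _ : V => W) v) ∘ₗ
      ((lam v • A) ∘ₗ (LinearMap.proj (σ v) : (V → W) →ₗ[ℂ] W)) := by
    refine LinearMap.ext fun f => funext fun u => ?_
    rw [hT, LinearMap.sum_apply, Finset.sum_apply]
    simp [Pi.single_apply]
  rw [h1, map_sum]
  refine Finset.sum_congr rfl fun v _ => ?_
  rw [LinearMap.trace_comp_comm']
  by_cases hv : σ v = v
  · have : ((lam v • A) ∘ₗ (LinearMap.proj (σ v) : (V → W) →ₗ[ℂ] W)) ∘ₗ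
        (LinearMap.single ℂ (fun _ : V => W) v) = lam v • A := by
      refine LinearMap.ext fun w => ?_
      simp [hv]
    rw [this, if_pos hv, map_smul, smul_eq_mul]
  · have : ((lam v • A) ∘ₗ (LinearMap.proj (σ v) : (V → W) →ₗ[ℂ] W)) ∘ₗ
        (LinearMap.single ℂ (fun _ : V => W) v) = 0 := by
      refine LinearMap.ext fun w => ?_
      simp [hv]
    rw [this, if_neg hv, map_zero, zero_mul]

end Trace

section Ext

variable {Q V : Type*} [Group Q] [AddCommGroup V] [DistribMulAction Q V]

/-- The action of `Q` on additive characters. -/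
noncomputable def dualAct (x : Q) (ψ : AddChar V ℂ) : AddChar V ℂ :=
  ψ.compAddMonoidHom (DistribMulAction.toAddMonoidHom V x⁻¹)

@[simp] theorem dualAct_apply (x : Q) (ψ : AddChar V ℂ) (v : V) : dualAct x ψ v = ψ (x⁻¹ • v) :=
  rfl

@[simp] theorem dualAct_one (ψ : AddChar V ℂ) : dualAct (1 : Q) ψ = ψ := by
  ext v
  simp

theorem dualAct_mul (x y : Q) (ψ : AddChar V ℂ) : dualAct (x * y) ψ = dualAct x (dualAct y ψ) := by
  ext v
  simp [mul_smul]

@[simp] theorem dualAct_mul_char (x : Q) (ψ ψ' : AddChar V ℂ) :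
    dualAct x (ψ * ψ') = dualAct x ψ * dualAct x ψ' := by
  ext v
  simp [AddChar.mul_apply]

@[simp] theorem dualAct_one_char (x : Q) : dualAct x (1 : AddChar V ℂ) = 1 := by
  ext v
  simp

@[simp] theorem dualAct_inv_char (x : Q) (ψ : AddChar V ℂ) : dualAct x ψ⁻¹ = (dualAct x ψ)⁻¹ := by
  ext v
  simp [AddChar.inv_apply]

variable (Q V) in
/-- Triples `(a, χ, x)`. -/
@[ext] structure Ext where
  /-- translation part -/
  a : V
  /-- character part -/
  c : AddChar V ℂ
  /-- group part -/
  x : Q

noncomputable instance : Group (Ext Q V) where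
  mul s t := ⟨s.a + s.x • t.a, s.c * dualAct s.x t.c, s.x * t.x⟩
  one := ⟨0, 1, 1⟩
  inv s := ⟨-(s.x⁻¹ • s.a), (dualAct s.x⁻¹ s.c)⁻¹, s.x⁻¹⟩
  mul_assoc s t u := by
    refine Ext.ext ?_ ?_ ?_
    · show s.a + s.x • t.a + (s.x * t.x) • u.a = s.a + s.x • (t.a + t.x • u.a)
      rw [smul_add, mul_smul, add_assoc]
    · show s.c * dualAct s.x t.c * dualAct (s.x * t.x) u.c = s.c * dualAct s.x (t.c * dualAct t.x u.c)
      rw [dualAct_mul_char, dualAct_mul, mul_assoc]
    · exact mul_assoc _ _ _
  one_mul s := by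
    refine Ext.ext ?_ ?_ ?_
    · show (0 : V) + (1 : Q) • s.a = s.a
      simp
    · show (1 : AddChar V ℂ) * dualAct (1 : Q) s.c = s.c
      simp
    · exact one_mul _
  mul_one s := by
    refine Ext.ext ?_ ?_ ?_
    · show s.a + s.x • (0 : V) = s.a
      simp
    · show s.c * dualAct s.x (1 : AddChar V ℂ) = s.c
      simp
    · exact mul_one _
  inv_mul_cancel s := by
    refine Ext.ext ?_ ?_ ?_
    · show -(s.x⁻¹ • s.a) + s.x⁻¹ • s.a = 0
      simp
    · show (dualAct s.x⁻¹ s.c)⁻¹ * dualAct s.x⁻¹ s.c = 1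
      simp
    · exact inv_mul_cancel _

@[simp] theorem Ext.mul_a (s t : Ext Q V) : (s * t).a = s.a + s.x • t.a := rfl
@[simp] theorem Ext.mul_c (s t : Ext Q V) : (s * t).c = s.c * dualAct s.x t.c := rfl
@[simp] theorem Ext.mul_x (s t : Ext Q V) : (s * t).x = s.x * t.x := rfl
@[simp] theorem Ext.one_a : (1 : Ext Q V).a = 0 := rfl
@[simp] theorem Ext.one_c : (1 : Ext Q V).c = 1 := rfl
@[simp] theorem Ext.one_x : (1 : Ext Q V).x = 1 := rfl

/-- As a product. -/
def Ext.equiv : Ext Q V ≃ V × AddChar V ℂ × Q where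
  toFun s := (s.a, s.c, s.x)
  invFun t := ⟨t.1, t.2.1, t.2.2⟩
  left_inv _ := rfl
  right_inv _ := rfl

variable {W : Type*} [AddCommGroup W] [Module ℂ W]

/-- The extended projective representation. -/
noncomputable def extRep (α : Q → Module.End ℂ W) (s : Ext Q V) : Module.End ℂ (V → W) where
  toFun f v := s.c v • α s.x (f (s.x⁻¹ • (v - s.a)))
  map_add' f g := by
    funext v
    simp [smul_add]
  map_smul' z f := by
    funext v
    simp [smul_comm z]

@[simp] theorem extRep_apply (α : Q → Module.End ℂ W) (s : Ext Q V) (f : V → W) (v : V) :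
    extRep α s f v = s.c v • α s.x (f (s.x⁻¹ • (v - s.a))) := rfl

theorem isNDRep_ext [Finite Q] [Finite V] [FiniteDimensional ℂ W] {N : ℕ} {α : Q → Module.End ℂ W}
    (hα : NDRep N α) {p : ℕ} (hpN : p ∣ N) (hV : ∀ v : V, p • v = 0) :
    NDRep N (extRep (V := V) α) where
  one := by
    refine LinearMap.ext fun f => funext fun v => ?_
    simp [hα.one]
  mul s t := by
    obtain ⟨c, hc, hαc⟩ := hα.mul s.x t.x
    have hw : ∀ w : V, t.c w ^ N = 1 := by
      intro w
      obtain ⟨k, rfl⟩ := hpN
      rw [pow_mul, ← AddChar.map_nsmul_eq_pow, hV, AddChar.map_zero_eq_one, one_pow]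
    refine ⟨(t.c (s.x⁻¹ • s.a))⁻¹ * c, ?_, ?_⟩
    · rw [mul_pow, inv_pow, hw, inv_one, one_mul, hc]
    · refine LinearMap.ext fun f => funext fun v => ?_
      have hαc' : ∀ w, α s.x (α t.x w) = c • α (s.x * t.x) w := by
        intro w
        have := congrArg (fun A : Module.End ℂ W => A w) hαc
        simpa using this
      have e : t.x⁻¹ • (s.x⁻¹ • (v - s.a) - t.a) = (s.x * t.x)⁻¹ • (v - (s.a + s.x • t.a)) := by
        rw [mul_inv_rev, mul_smul, ← sub_sub, smul_sub (s.x⁻¹) (v - s.a) (s.x • t.a),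
          inv_smul_smul]
      have e2 : t.c (s.x⁻¹ • (v - s.a)) = t.c (s.x⁻¹ • v) * (t.c (s.x⁻¹ • s.a))⁻¹ := by
        rw [smul_sub, sub_eq_add_neg, AddChar.map_add_eq_mul, AddChar.map_neg_eq_inv]
      simp only [Module.End.mul_apply, extRep_apply, map_smul, LinearMap.smul_apply, Ext.mul_a,
        Ext.mul_c, Ext.mul_x, AddChar.mul_apply, dualAct_apply, hαc', e, e2, smul_smul,
        Pi.smul_apply]
      congr 1
      ring
  tr s hs := by
    classical
    haveI := Fintype.ofFinite V
    rw [trace_weighted (s.c : V → ℂ) (fun v => s.x⁻¹ • (v - s.a)) (α s.x) _ (fun f v => rfl)]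
    by_cases hx : s.x = 1
    · by_cases ha : s.a = 0
      · have hc : s.c ≠ 1 := by
          intro hc
          exact hs (Ext.ext ha hc hx)
        have : ∀ v, (if s.x⁻¹ • (v - s.a) = v then s.c v else 0) * LinearMap.trace ℂ W (α s.x) =
            s.c v * LinearMap.trace ℂ W (α s.x) := by
          intro v
          simp [hx, ha]
        simp only [this]
        rw [← Finset.sum_mul, AddChar.sum_eq_zero_of_ne_one hc, zero_mul]
      · refine Finset.sum_eq_zero fun v _ => ?_
        rw [if_neg, zero_mul]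
        simp only [hx, inv_one, one_smul]
        intro h
        apply ha
        have : v - s.a = v - 0 := by rw [h, sub_zero]
        exact sub_right_injective this
    · rw [hα.tr _ hx]
      simp
  card := by
    classical
    haveI := Fintype.ofFinite V
    rw [Nat.card_congr Ext.equiv, Nat.card_prod, Nat.card_prod, Nat.card_eq_fintype_card (α := V),
      Nat.card_eq_fintype_card (α := AddChar V ℂ), AddChar.card_eq, hα.card, Module.finrank_pi_fintype]
    simp
    ring

end Ext

end Cfsg.Agent.Lib.CentralType.Rep
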