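import Mathlib
import Cfsg.Agent.Lib.CentralType.Rep

/-!
# Embedding solvable groups into iterated extensions

An extension of an abelian group by `Y` embeds into the wreath product; we use this to embed a
finite solvable group into the domain of an `NDRep`.
-/

namespace Cfsg.Agent.Lib.CentralType.Embed

open Cfsg.Agent.Lib.CentralType.Rep

universe u

/-- Functions on `Q`, with the translation action of `Q`. -/
def Fn (Q A : Type*) := Q → A

section Fn

variable {Q A : Type*}

instance [AddCommGroup A] : AddCommGroup (Fn Q A) := inferInstanceAs (AddCommGroup (Q → A))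

instance [Finite Q] [Finite A] : Finite (Fn Q A) := inferInstanceAs (Finite (Q → A))

instance [Group Q] [AddCommGroup A] : DistribMulAction Q (Fn Q A) where
  smul x f := fun q => f (x⁻¹ * q)
  one_smul f := by
    funext q
    show f (1⁻¹ * q) = f q
    simp
  mul_smul x y f := by
    funext q
    show f ((x * y)⁻¹ * q) = f (y⁻¹ * (x⁻¹ * q))
    rw [mul_inv_rev, mul_assoc]
  smul_zero _ := rfl
  smul_add _ _ _ := rfl

theorem Fn.smul_apply [Group Q] [AddCommGroup A] (x : Q) (f : Fn Q A) (q : Q) :
    (x • f) q = f (x⁻¹ * q) := rfl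

theorem Fn.add_apply [AddCommGroup A] (f g : Fn Q A) (q : Q) : (f + g) q = f q + g q := rfl

theorem Fn.zero_apply [AddCommGroup A] (q : Q) : (0 : Fn Q A) q = 0 := rfl

end Fn

/-- The embedding into the wreath product. -/
theorem embed {G Y Q A : Type*} [Group G] [Group Y] [Group Q] [AddCommGroup A] (π : G →* Y)
    (hπ : Function.Surjective π) (f : Y →* Q) (hf : Function.Injective f)
    (j : π.ker →* Multiplicative A) (hj : Function.Injective j) :
    ∃ F : G →* Ext Q (Fn Q A), Function.Injective F := by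
  classical
  let s : Y → G := Function.surjInv hπ
  have hs : ∀ y, π (s y) = y := Function.surjInv_eq hπ
  have hmem : ∀ (g : G) (y : Y), (s y)⁻¹ * g * s ((π g)⁻¹ * y) ∈ π.ker := by
    intro g y
    rw [MonoidHom.mem_ker, map_mul, map_mul, map_inv, hs, hs]
    group
  let cc : G → Y → A := fun g y => Multiplicative.toAdd (j ⟨_, hmem g y⟩)
  have hcc : ∀ g h y, cc (g * h) y = cc g y + cc h ((π g)⁻¹ * y) := by
    intro g h y
    show Multiplicative.toAdd (j ⟨_, hmem (g * h) y⟩) =
      Multiplicative.toAdd (j ⟨_, hmem g y⟩ * j ⟨_, hmem h ((π g)⁻¹ * y)⟩)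
    rw [← map_mul]
    congr 2
    apply Subtype.ext
    show (s y)⁻¹ * (g * h) * s ((π (g * h))⁻¹ * y) =
      (s y)⁻¹ * g * s ((π g)⁻¹ * y) * ((s ((π g)⁻¹ * y))⁻¹ * h * s ((π h)⁻¹ * ((π g)⁻¹ * y)))
    have e : (π (g * h))⁻¹ * y = (π h)⁻¹ * ((π g)⁻¹ * y) := by
      rw [map_mul, mul_inv_rev, mul_assoc]
    rw [e]
    group
  let CC : G → Fn Q A := fun g => Function.extend f (cc g) 0
  have hCC : ∀ g h, CC (g * h) = CC g + f (π g) • CC h := by
    intro g h
    funext q
    rw [Fn.add_apply, Fn.smul_apply]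
    by_cases hq : ∃ y, f y = q
    · obtain ⟨y, rfl⟩ := hq
      have e : (f (π g))⁻¹ * f y = f ((π g)⁻¹ * y) := by rw [map_mul, map_inv]
      rw [e]
      show Function.extend f (cc (g * h)) 0 (f y) =
        Function.extend f (cc g) 0 (f y) + Function.extend f (cc h) 0 (f ((π g)⁻¹ * y))
      rw [hf.extend_apply, hf.extend_apply, hf.extend_apply, hcc]
    · have hq' : ¬ ∃ y, f y = (f (π g))⁻¹ * q := by
        rintro ⟨y, hy⟩
        apply hq
        refine ⟨π g * y, ?_⟩
        rw [map_mul, hy, mul_inv_cancel_left]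
      show Function.extend f (cc (g * h)) 0 q =
        Function.extend f (cc g) 0 q + Function.extend f (cc h) 0 ((f (π g))⁻¹ * q)
      rw [Function.extend_apply' _ _ _ hq, Function.extend_apply' _ _ _ hq,
        Function.extend_apply' _ _ _ hq']
      simp
  let F : G →* Ext Q (Fn Q A) := MonoidHom.mk' (fun g => ⟨CC g, 1, f (π g)⟩) (by
    intro g h
    refine Ext.ext (hCC g h) ?_ ?_
    · show (1 : AddChar (Fn Q A) ℂ) = 1 * dualAct (f (π g)) (1 : AddChar (Fn Q A) ℂ)
      simp
    · show f (π (g * h)) = f (π g) * f (π h)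
      rw [map_mul, map_mul])
  refine ⟨F, (injective_iff_map_eq_one F).mpr ?_⟩
  intro g hg
  have h1 : f (π g) = 1 := congrArg Ext.x hg
  have h2 : CC g = 0 := congrArg Ext.a hg
  have h3 : π g = 1 := hf (by rw [h1, map_one])
  have h4 : cc g 1 = 0 := by
    have := congrFun h2 (f 1)
    rw [show CC g (f 1) = Function.extend f (cc g) 0 (f 1) from rfl, hf.extend_apply] at this
    exact this
  have h5 : j ⟨_, hmem g 1⟩ = 1 := h4
  have h6 := hj (h5.trans (map_one j).symm)
  have h7 : (s 1)⁻¹ * g * s ((π g)⁻¹ * 1) = 1 := congrArg Subtype.val h6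
  rw [h3, inv_one, one_mul] at h7
  have h8 : (s 1)⁻¹ * g = (s 1)⁻¹ := by
    exact mul_right_cancel (h7.trans (inv_mul_cancel _).symm)
  exact mul_left_cancel (h8.trans (mul_one _).symm)

/-- A nontrivial solvable group has a nontrivial normal elementary abelian subgroup. -/
theorem exists_elem_normal (G : Type*) [Group G] [Finite G] [Group.IsSolvable G] [Nontrivial G] :
    ∃ (N : Subgroup G) (p : ℕ), N.Normal ∧ p.Prime ∧ p ∣ Nat.card N ∧ (∀ n ∈ N, n ^ p = 1) ∧
      ∀ a ∈ N, ∀ b ∈ N, a * b = b * a := by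
  classical
  have hex : ∃ n, derivedSeries G n = ⊥ := Group.IsSolvable.solvable
  let n := Nat.find hex
  have hn : derivedSeries G n = ⊥ := Nat.find_spec hex
  have hn0 : n ≠ 0 := by
    intro h0
    rw [h0, derivedSeries_zero] at hn
    exact top_ne_bot hn
  obtain ⟨k, hk⟩ : ∃ k, n = k + 1 := Nat.exists_eq_succ_of_ne_zero hn0
  let A := derivedSeries G k
  have hA : A ≠ ⊥ := fun h => Nat.find_min hex (m := k) (by omega) h
  have hAn : A.Normal := derivedSeries_normal G k
  have hcomm : ∀ a ∈ A, ∀ b ∈ A, a * b = b * a := by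
    intro a ha b hb
    have h1 : ⁅A, A⁆ = ⊥ := by
      have := hn
      rw [hk] at this
      exact this
    have h2 := Subgroup.commutator_mem_commutator ha hb
    rw [h1, Subgroup.mem_bot] at h2
    exact commutatorElement_eq_one_iff_mul_comm.mp h2
  have hcard : Nat.card A ≠ 1 := by
    intro h
    exact hA (Subgroup.card_eq_one.mp h)
  obtain ⟨p, hp, hpd⟩ := Nat.exists_prime_and_dvd hcard
  haveI : Fact p.Prime := ⟨hp⟩
  obtain ⟨x, hx⟩ := exists_prime_orderOf_dvd_card' p hpd
  let N : Subgroup G :=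
    { carrier := {a | a ∈ A ∧ a ^ p = 1}
      mul_mem' := by
        rintro a b ⟨ha, ha'⟩ ⟨hb, hb'⟩
        refine ⟨A.mul_mem ha hb, ?_⟩
        have hc : Commute a b := hcomm a ha b hb
        rw [hc.mul_pow, ha', hb', one_mul]
      one_mem' := ⟨A.one_mem, one_pow _⟩
      inv_mem' := by
        rintro a ⟨ha, ha'⟩
        exact ⟨A.inv_mem ha, by rw [inv_pow, ha', inv_one]⟩ }
  have hxN : (x : G) ∈ N := by
    refine ⟨x.2, ?_⟩
    have := pow_orderOf_eq_one x
    rw [hx] at this
    exact congrArg Subtype.val this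
  refine ⟨N, p, ⟨?_⟩, hp, ?_, fun a ha => ha.2, fun a ha b hb => hcomm a ha.1 b hb.1⟩
  · rintro a ⟨ha, ha'⟩ g
    refine ⟨hAn.conj_mem a ha g, ?_⟩
    rw [conj_pow, ha', mul_one, mul_inv_cancel]
  · have hor : orderOf (⟨x, hxN⟩ : N) = p := by
      rw [Subgroup.orderOf_mk, Subgroup.orderOf_coe, hx]
    rw [← hor]
    exact orderOf_dvd_natCard _

/-- The main induction. -/
theorem exists_ndrep (N₀ : ℕ) :
    ∀ (n : ℕ) (G : Type u) [Group G] [Finite G], Nat.card G = n → Group.IsSolvable G →
      (∀ r : ℕ, r.Prime → r ∣ Nat.card G → r ∣ N₀) →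
      ∃ (Q : Type u) (_ : Group Q) (_ : Finite Q) (W : Type u) (_ : AddCommGroup W)
        (_ : Module ℂ W) (_ : FiniteDimensional ℂ W) (α : Q → Module.End ℂ W),
        NDRep N₀ α ∧ (∀ r : ℕ, r.Prime → r ∣ Nat.card Q → r ∣ N₀) ∧
          ∃ f : G →* Q, Function.Injective f := by
  intro n
  induction n using Nat.strong_induction_on with
  | _ n ih =>
    intro G _ _ hn hsolv hpr
    by_cases hG : Subsingleton G
    · refine ⟨PUnit.{u+1}, inferInstance, inferInstance, ULift.{u} ℂ, inferInstance, inferInstance,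
        inferInstance, fun _ => 1, ⟨rfl, fun _ _ => ⟨1, one_pow _, by simp⟩,
          fun x hx => absurd (Subsingleton.elim _ _) hx, ?_⟩, ?_, 1, ?_⟩
      · rw [LinearEquiv.finrank_eq (ULift.moduleEquiv (R := ℂ) (M := ℂ))]
        simp
      · intro r hr hd
        simp at hd
        exact absurd hd hr.ne_one
      · intro a b _
        exact Subsingleton.elim _ _
    · rw [not_subsingleton_iff_nontrivial] at hG
      obtain ⟨N, p, hNn, hp, hpd, hexp, hcomm⟩ := exists_elem_normal G
      have hcardG : Nat.card G = Nat.card (G ⧸ N) * Nat.card N :=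
        Subgroup.card_eq_card_quotient_mul_card_subgroup N
      have hNpos : 1 < Nat.card N := lt_of_lt_of_le hp.one_lt (Nat.le_of_dvd Nat.card_pos hpd)
      have hYpos : 0 < Nat.card (G ⧸ N) := Nat.card_pos
      have hlt : Nat.card (G ⧸ N) < n := by
        rw [← hn, hcardG]
        exact lt_mul_of_one_lt_right hYpos hNpos
      have hdvdY : Nat.card (G ⧸ N) ∣ Nat.card G := ⟨_, hcardG⟩
      have hdvdN : Nat.card N ∣ Nat.card G := ⟨_, by rw [hcardG, mul_comm]⟩
      obtain ⟨Q, _, _, W, _, _, _, α, hα, hQ, f, hf⟩ := ih _ hlt (G ⧸ N) rfl inferInstance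
        (fun r hr hd => hpr r hr (hd.trans hdvdY))
      letI : CommGroup N :=
        { (inferInstance : Group N) with
          mul_comm := fun a b => Subtype.ext (hcomm a.1 a.2 b.1 b.2) }
      let A := Additive N
      haveI : Finite A := inferInstanceAs (Finite N)
      have hV : ∀ v : Fn Q A, p • v = 0 := by
        intro v
        funext q
        show p • (v q) = 0
        have h1 : (Additive.toMul (v q)) ^ p = 1 := Subtype.ext (hexp _ (Additive.toMul (v q)).2)
        exact congrArg Additive.ofMul h1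
      have hpN₀ : p ∣ N₀ := hpr p hp (hpd.trans hdvdN)
      have hker : ∀ a : (QuotientGroup.mk' N).ker, a.1 ∈ N := fun a =>
        (QuotientGroup.eq_one_iff a.1).mp (MonoidHom.mem_ker.mp a.2)
      let j : (QuotientGroup.mk' N).ker →* Multiplicative A :=
        { toFun := fun a => Multiplicative.ofAdd (Additive.ofMul (⟨a.1, hker a⟩ : N))
          map_one' := rfl
          map_mul' := fun _ _ => rfl }
      have hj : Function.Injective j := by
        intro a b hab
        have h1 : (⟨a.1, hker a⟩ : N) = ⟨b.1, hker b⟩ := hab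
        exact Subtype.ext (congrArg (fun z : N => (z : G)) h1)
      obtain ⟨F, hF⟩ := embed (QuotientGroup.mk' N) (QuotientGroup.mk'_surjective N) f hf j hj
      haveI : Finite (Ext Q (Fn Q A)) := Finite.of_equiv _ Ext.equiv.symm
      refine ⟨Ext Q (Fn Q A), inferInstance, inferInstance, Fn Q A → W, inferInstance, inferInstance,
        inferInstance, extRep α, isNDRep_ext hα hpN₀ hV, ?_, F, hF⟩
      intro r hr hd
      haveI := Fintype.ofFinite (Fn Q A)
      rw [Nat.card_congr Ext.equiv, Nat.card_prod, Nat.card_prod,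
        Nat.card_eq_fintype_card (α := AddChar (Fn Q A) ℂ), AddChar.card_eq,
        ← Nat.card_eq_fintype_card] at hd
      have hVcard : r ∣ Nat.card (Fn Q A) → r ∣ N₀ := by
        intro h
        have h1 : Nat.card (Fn Q A) = Nat.card A ^ Nat.card Q := Nat.card_fun
        rw [h1] at h
        have h2 : r ∣ Nat.card N := hr.dvd_of_dvd_pow h
        haveI : Fact r.Prime := ⟨hr⟩
        obtain ⟨x, hx⟩ := exists_prime_orderOf_dvd_card' r h2
        have h3 : x ^ p = 1 := Subtype.ext (hexp _ x.2)
        have h4 : r ∣ p := hx ▸ orderOf_dvd_of_pow_eq_one h3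
        rw [(Nat.prime_dvd_prime_iff_eq hr hp).mp h4]
        exact hpN₀
      rcases (Nat.Prime.dvd_mul hr).mp hd with h | h
      · exact hVcard h
      · rcases (Nat.Prime.dvd_mul hr).mp h with h | h
        · exact hVcard h
        · exact hQ r hr h

end Cfsg.Agent.Lib.CentralType.Embed
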