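import Mathlib
import Cfsg.Prelude.Def_Blocks
import Cfsg.Agent.Lib.CentralType.Rep
import Cfsg.Agent.Lib.CharT.Transfer

/-!
# From projective representations to groups of central type

Given `NDRep N α` with `α : Q → End W`, the group `H` of all `z • α x`, `z` an `N`-th root of unity,
has a faithful irreducible character, centre the scalars, and `H / Z(H)` contains `Q`.
-/

namespace Cfsg.Agent.Lib.CentralType.Final

open Cfsg.Agent.Lib.CentralType.Rep

universe u

variable {Q : Type u} [Group Q] [Finite Q] {W : Type u} [AddCommGroup W] [Module ℂ W]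
  [FiniteDimensional ℂ W] {N : ℕ} {α : Q → Module.End ℂ W}

theorem finrank_pos (hα : NDRep N α) : 0 < Module.finrank ℂ W := by
  have h1 : 0 < Nat.card Q := Nat.card_pos
  rw [hα.card] at h1
  exact Nat.pos_of_ne_zero fun h => by simp [h] at h1

theorem nontrivial_W (hα : NDRep N α) : Nontrivial W :=
  Module.nontrivial_of_finrank_pos (R := ℂ) (finrank_pos hα)

theorem root_ne_zero {z : ℂ} (hN : 0 < N) (hz : z ^ N = 1) : z ≠ 0 := by
  rintro rfl
  rw [zero_pow hN.ne'] at hz
  exact zero_ne_one hz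

theorem alpha_ne_zero (hN : 0 < N) (hα : NDRep N α) (x : Q) : α x ≠ 0 := by
  haveI := nontrivial_W hα
  intro h0
  obtain ⟨c, hc, h1⟩ := hα.mul x x⁻¹
  rw [h0, zero_mul, mul_inv_cancel, hα.one] at h1
  have h2 : c • (1 : Module.End ℂ W) ≠ 0 := smul_ne_zero (root_ne_zero hN hc) one_ne_zero
  exact h2 h1.symm

theorem eq_one_of_scalar (hN : 0 < N) (hα : NDRep N α) {x : Q} {w : ℂ}
    (h : α x = w • 1) : x = 1 := by
  by_contra hx
  have h1 := hα.tr x hx
  rw [h, map_smul, LinearMap.trace_one, smul_eq_mul] at h1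
  have hd : ((Module.finrank ℂ W : ℕ) : ℂ) ≠ 0 := by
    exact_mod_cast (finrank_pos hα).ne'
  have hw : w = 0 := (mul_eq_zero.mp h1).resolve_right hd
  apply alpha_ne_zero hN hα x
  rw [h, hw, zero_smul]

/-- Independence. -/
theorem linearIndependent_alpha (hN : 0 < N) (hα : NDRep N α) [Fintype Q] :
    LinearIndependent ℂ α := by
  classical
  rw [Fintype.linearIndependent_iff]
  intro g hg y
  have hd : ((Module.finrank ℂ W : ℕ) : ℂ) ≠ 0 := by
    exact_mod_cast (finrank_pos hα).ne'
  obtain ⟨c, hc, hcy⟩ := hα.mul y y⁻¹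
  have h1 : LinearMap.trace ℂ W ((∑ i, g i • α i) * α y⁻¹) = g y * (c * Module.finrank ℂ W) := by
    rw [Finset.sum_mul, map_sum, Finset.sum_eq_single y]
    · rw [smul_mul_assoc, map_smul, smul_eq_mul, hcy, mul_inv_cancel, hα.one, map_smul,
        LinearMap.trace_one, smul_eq_mul]
    · intro b _ hb
      obtain ⟨c', _, hcb⟩ := hα.mul b y⁻¹
      rw [smul_mul_assoc, map_smul, hcb, map_smul, hα.tr _ (fun h => hb (mul_inv_eq_one.mp h))]
      simp
    · simp
  rw [hg, zero_mul, map_zero] at h1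
  have hc0 := root_ne_zero hN hc
  have := h1.symm
  simpa [hc0, hd] using this

theorem span_alpha (hN : 0 < N) (hα : NDRep N α) : Submodule.span ℂ (Set.range α) = ⊤ := by
  classical
  haveI := Fintype.ofFinite Q
  refine (linearIndependent_alpha hN hα).span_eq_top_of_card_eq_finrank' ?_
  rw [← Nat.card_eq_fintype_card, hα.card, Module.finrank_linearMap, sq]

/-- An endomorphism commuting with all `α x` is scalar. -/
theorem scalar_of_commute (hN : 0 < N) (hα : NDRep N α) {T : Module.End ℂ W}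
    (hT : ∀ x, α x * T = T * α x) : ∃ w : ℂ, T = w • 1 := by
  have hall : ∀ S : Module.End ℂ W, S * T = T * S := by
    intro S
    have hS : S ∈ Submodule.span ℂ (Set.range α) := by
      rw [span_alpha hN hα]
      trivial
    induction hS using Submodule.span_induction with
    | mem S h =>
      obtain ⟨x, rfl⟩ := h
      exact hT x
    | zero => simp
    | add A B _ _ h1 h2 => rw [add_mul, mul_add, h1, h2]
    | smul a A _ h => rw [smul_mul_assoc, mul_smul_comm, h]
  have hc : T ∈ Subalgebra.center ℂ (Module.End ℂ W) := Subalgebra.mem_center_iff.mpr hall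
  rw [Algebra.IsCentral.center_eq_bot, Algebra.mem_bot] at hc
  obtain ⟨w, rfl⟩ := hc
  exact ⟨w, by rw [Algebra.algebraMap_eq_smul_one]⟩

theorem exists_two_inv (hN : 0 < N) (hα : NDRep N α) (x : Q) :
    ∃ A : Module.End ℂ W, α x * A = 1 ∧ A * α x = 1 := by
  obtain ⟨c, hc, h1⟩ := hα.mul x x⁻¹
  obtain ⟨c', hc', h2⟩ := hα.mul x⁻¹ x
  rw [mul_inv_cancel, hα.one] at h1
  rw [inv_mul_cancel, hα.one] at h2
  have h3 : (c - c') • α x = 0 := by
    have e1 : (α x * α x⁻¹) * α x = α x * (α x⁻¹ * α x) := mul_assoc _ _ _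
    rw [h1, h2] at e1
    simp only [smul_mul_assoc, one_mul, mul_smul_comm, mul_one] at e1
    rw [sub_smul, e1, sub_self]
  have h4 : c = c' := sub_eq_zero.mp ((smul_eq_zero.mp h3).resolve_right (alpha_ne_zero hN hα x))
  subst h4
  have hc0 := root_ne_zero hN hc
  refine ⟨c⁻¹ • α x⁻¹, ?_, ?_⟩
  · rw [mul_smul_comm, h1, smul_smul, inv_mul_cancel₀ hc0, one_smul]
  · rw [smul_mul_assoc, h2, smul_smul, inv_mul_cancel₀ hc0, one_smul]

/-- `α x` as a unit. -/
noncomputable def uA (hN : 0 < N) (hα : NDRep N α) (x : Q) : (Module.End ℂ W)ˣ where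
  val := α x
  inv := (exists_two_inv hN hα x).choose
  val_inv := (exists_two_inv hN hα x).choose_spec.1
  inv_val := (exists_two_inv hN hα x).choose_spec.2

@[simp] theorem uA_val (hN : 0 < N) (hα : NDRep N α) (x : Q) : (uA hN hα x).val = α x := rfl

/-- Scalars as units. -/
noncomputable def sU : ℂˣ →* (Module.End ℂ W)ˣ :=
  Units.map (algebraMap ℂ (Module.End ℂ W)).toMonoidHom

@[simp] theorem sU_val (z : ℂˣ) : (sU z : (Module.End ℂ W)ˣ).val = (z : ℂ) • 1 := by
  simp [sU, Algebra.algebraMap_eq_smul_one]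

theorem sU_comm (z : ℂˣ) (u : (Module.End ℂ W)ˣ) : sU z * u = u * sU z := by
  ext1
  simp

/-- The group. -/
noncomputable def HH (hN : 0 < N) (hα : NDRep N α) : Subgroup (Module.End ℂ W)ˣ where
  carrier := {u | ∃ z : ℂˣ, z ^ N = 1 ∧ ∃ x, u = sU z * uA hN hα x}
  mul_mem' := by
    rintro _ _ ⟨z, hz, x, rfl⟩ ⟨z', hz', y, rfl⟩
    obtain ⟨c, hc, h1⟩ := hα.mul x y
    let c' : ℂˣ := Units.mk0 c (root_ne_zero hN hc)
    have hc' : c' ^ N = 1 := by
      ext1
      simpa [c'] using hc
    refine ⟨z * z' * c', ?_, x * y, ?_⟩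
    · rw [mul_pow, mul_pow, hz, hz', hc', one_mul, one_mul]
    · ext1
      simp only [Units.val_mul, sU_val, uA_val, smul_mul_assoc, one_mul, mul_smul_comm, h1, c',
        Units.val_mk0, smul_smul]
      congr 1
      ring
  one_mem' := by
    refine ⟨1, one_pow _, 1, ?_⟩
    ext1
    simp [hα.one]
  inv_mem' := by
    rintro _ ⟨z, hz, x, rfl⟩
    obtain ⟨c, hc, h1⟩ := hα.mul x x⁻¹
    let c' : ℂˣ := Units.mk0 c (root_ne_zero hN hc)
    have hc' : c' ^ N = 1 := by
      ext1
      simpa [c'] using hc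
    refine ⟨(z * c')⁻¹, ?_, x⁻¹, ?_⟩
    · rw [inv_pow, mul_pow, hz, hc', one_mul, inv_one]
    · apply inv_eq_of_mul_eq_one_right
      ext1
      simp only [Units.val_mul, sU_val, uA_val, smul_mul_assoc, one_mul, mul_smul_comm, h1, c',
        mul_inv_cancel, hα.one, smul_smul, Units.val_one, Units.val_inv_eq_inv_val, Units.val_mk0]
      rw [inv_mul_cancel₀ (mul_ne_zero z.ne_zero (root_ne_zero hN hc)), one_smul]

/-- The elements `α x` of `H`. -/
noncomputable def uH (hN : 0 < N) (hα : NDRep N α) (x : Q) : HH hN hα :=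
  ⟨uA hN hα x, 1, one_pow _, x, by ext1; simp⟩

/-- Scalars in `H`. -/
noncomputable def sH (hN : 0 < N) (hα : NDRep N α) (z : ℂˣ) (hz : z ^ N = 1) : HH hN hα :=
  ⟨sU z, z, hz, 1, by ext1; simp [hα.one]⟩

theorem sH_central (hN : 0 < N) (hα : NDRep N α) (z : ℂˣ) (hz : z ^ N = 1) :
    sH hN hα z hz ∈ Subgroup.center (HH hN hα) := by
  rw [Subgroup.mem_center_iff]
  intro g
  apply Subtype.ext
  exact (sU_comm z g.1).symm

theorem mem_center_HH (hN : 0 < N) (hα : NDRep N α) {u : HH hN hα}
    (hu : u ∈ Subgroup.center (HH hN hα)) : ∃ (z : ℂˣ) (hz : z ^ N = 1), u = sH hN hα z hz := by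
  obtain ⟨z, hz, x, hux⟩ := u.2
  rw [Subgroup.mem_center_iff] at hu
  have hcomm : ∀ y, α y * u.1.val = u.1.val * α y := by
    intro y
    have := congrArg (fun g : HH hN hα => g.1.val) (hu (uH hN hα y))
    simpa [uH] using this
  obtain ⟨w, hw⟩ := scalar_of_commute hN hα hcomm
  have hv : (z : ℂ) • α x = w • 1 := by
    rw [← hw, hux]
    simp
  have hα1 : α x = ((z : ℂ)⁻¹ * w) • 1 := by
    rw [mul_smul, ← hv, smul_smul, inv_mul_cancel₀ z.ne_zero, one_smul]
  have hx := eq_one_of_scalar hN hα hα1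
  refine ⟨z, hz, ?_⟩
  apply Subtype.ext
  ext1
  show u.1.val = _
  rw [hux, hx]
  simp [sH, hα.one]

instance instFiniteHH (hN : 0 < N) (hα : NDRep N α) : Finite (HH hN hα) := by
  haveI : NeZero N := ⟨hN.ne'⟩
  let g : rootsOfUnity N ℂ × Q → HH hN hα := fun p =>
    ⟨sU p.1.1 * uA hN hα p.2, p.1.1, p.1.2, p.2, rfl⟩
  refine Finite.of_surjective g ?_
  rintro ⟨_, z, hz, x, rfl⟩
  exact ⟨(⟨z, hz⟩, x), rfl⟩

theorem card_HH (hN : 0 < N) (hα : NDRep N α) :
    Nat.card (HH hN hα) = N * Nat.card Q := by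
  haveI : NeZero N := ⟨hN.ne'⟩
  let g : rootsOfUnity N ℂ × Q → HH hN hα := fun p =>
    ⟨sU p.1.1 * uA hN hα p.2, p.1.1, p.1.2, p.2, rfl⟩
  have hg : Function.Bijective g := by
    constructor
    · rintro ⟨⟨z, hz⟩, x⟩ ⟨⟨z', hz'⟩, y⟩ h
      have h1 : (z : ℂ) • α x = (z' : ℂ) • α y := by
        have := congrArg (fun g : HH hN hα => g.1.val) h
        simpa [g] using this
      obtain ⟨c, hc, hcm⟩ := hα.mul y y⁻¹
      obtain ⟨c₁, hc₁, hcm₁⟩ := hα.mul x y⁻¹
      have h2 : (z : ℂ) • (c₁ • α (x * y⁻¹)) = (z' : ℂ) • (c • 1) := by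
        rw [← hcm₁, ← smul_mul_assoc, h1, smul_mul_assoc, hcm, mul_inv_cancel, hα.one]
      have h3 : α (x * y⁻¹) = (((z : ℂ) * c₁)⁻¹ * ((z' : ℂ) * c)) • 1 := by
        have h2' : ((z : ℂ) * c₁) • α (x * y⁻¹) = ((z' : ℂ) * c) • 1 := by
          rw [mul_smul, mul_smul]
          exact h2
        rw [mul_smul, ← h2', smul_smul,
          inv_mul_cancel₀ (mul_ne_zero z.ne_zero (root_ne_zero hN hc₁)), one_smul]
      have hxy : x = y := mul_inv_eq_one.mp (eq_one_of_scalar hN hα h3)
      subst hxy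
      have h4 : ((z : ℂ) - z') • α x = 0 := by
        rw [sub_smul, h1, sub_self]
      have h5 : (z : ℂ) - z' = 0 := (smul_eq_zero.mp h4).resolve_right (alpha_ne_zero hN hα x)
      have h6 : z = z' := Units.ext (sub_eq_zero.mp h5)
      subst h6
      rfl
    · rintro ⟨_, z, hz, x, rfl⟩
      exact ⟨(⟨z, hz⟩, x), rfl⟩
  rw [← Nat.card_congr (Equiv.ofBijective g hg), Nat.card_prod, Complex.card_rootsOfUnity]

theorem card_center_HH (hN : 0 < N) (hα : NDRep N α) :
    Nat.card (Subgroup.center (HH hN hα)) = N := by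
  haveI : NeZero N := ⟨hN.ne'⟩
  haveI := nontrivial_W hα
  let g : rootsOfUnity N ℂ → Subgroup.center (HH hN hα) := fun z =>
    ⟨sH hN hα z.1 z.2, sH_central hN hα z.1 z.2⟩
  have hg : Function.Bijective g := by
    constructor
    · rintro ⟨z, hz⟩ ⟨z', hz'⟩ h
      have h1 : (z : ℂ) • (1 : Module.End ℂ W) = (z' : ℂ) • 1 := by
        have := congrArg (fun g : Subgroup.center (HH hN hα) => g.1.1.val) h
        simpa [g, sH] using this
      have h2 : ((z : ℂ) - z') • (1 : Module.End ℂ W) = 0 := by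
        rw [sub_smul, h1, sub_self]
      have h3 : (z : ℂ) - z' = 0 := (smul_eq_zero.mp h2).resolve_right one_ne_zero
      have h4 : z = z' := Units.ext (sub_eq_zero.mp h3)
      subst h4
      rfl
    · rintro ⟨u, hu⟩
      obtain ⟨z, hz, rfl⟩ := mem_center_HH hN hα hu
      exact ⟨⟨z, hz⟩, rfl⟩
  rw [← Nat.card_congr (Equiv.ofBijective g hg), Complex.card_rootsOfUnity]

theorem index_center_HH (hN : 0 < N) (hα : NDRep N α) :
    (Subgroup.center (HH hN hα)).index = Nat.card Q := by
  have h1 := (Subgroup.center (HH hN hα)).card_mul_index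
  rw [card_center_HH, card_HH] at h1
  exact Nat.eq_of_mul_eq_mul_left hN h1

/-- The natural representation of `H`. -/
noncomputable def repH (hN : 0 < N) (hα : NDRep N α) : Representation ℂ (HH hN hα) W :=
  (Units.coeHom (Module.End ℂ W)).comp (HH hN hα).subtype

@[simp] theorem repH_apply (hN : 0 < N) (hα : NDRep N α) (u : HH hN hα) :
    repH hN hα u = u.1.val := rfl

theorem repH_irreducible (hN : 0 < N) (hα : NDRep N α) : (repH hN hα).IsIrreducible := by
  haveI := nontrivial_W hα
  refine { exists_pair_ne := ?_, eq_bot_or_eq_top := ?_ }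
  · refine ⟨⊥, ⊤, ?_⟩
    intro h
    have h1 : (⊥ : Subrepresentation (repH hN hα)).toSubmodule =
      (⊤ : Subrepresentation (repH hN hα)).toSubmodule := congrArg _ h
    exact bot_ne_top h1
  · intro U
    by_cases hU : U.toSubmodule = ⊥
    · left
      exact Subrepresentation.toSubmodule_injective hU
    · right
      obtain ⟨w, hw, hw0⟩ := (Submodule.ne_bot_iff _).mp hU
      apply Subrepresentation.toSubmodule_injective
      show U.toSubmodule = ⊤
      rw [eq_top_iff]
      intro w' _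
      -- any endomorphism preserves `U`
      have hall : ∀ S : Module.End ℂ W, S w ∈ U.toSubmodule := by
        intro S
        have hS : S ∈ Submodule.span ℂ (Set.range α) := by
          rw [span_alpha hN hα]
          trivial
        induction hS using Submodule.span_induction with
        | mem S h =>
          obtain ⟨x, rfl⟩ := h
          exact U.apply_mem_toSubmodule (uH hN hα x) hw
        | zero => simp
        | add A B _ _ h1 h2 => exact U.toSubmodule.add_mem h1 h2
        | smul a A _ h => exact U.toSubmodule.smul_mem a h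
      obtain ⟨f, hf⟩ : ∃ f : Module.Dual ℂ W, f w ≠ 0 := by
        by_contra hno
        push Not at hno
        exact hw0 ((Module.forall_dual_apply_eq_zero_iff ℂ w).mp hno)
      have := hall (((f w)⁻¹ • f).smulRight w')
      simpa [hf] using this

/-- All the properties. -/
theorem exists_central_type (hN : 0 < N) (hα : NDRep N α) :
    ∃ (H : Type u) (_ : Group H) (_ : Finite H) (χ : Cfsg.IrrCharacter H),
      (∀ h : H, (χ : H → ℂ) h = (χ : H → ℂ) 1 → h = 1) ∧
      (Cfsg.charDegree (χ : H → ℂ)) ^ 2 = (Subgroup.center H).index ∧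
      (∃ f : Q →* H ⧸ Subgroup.center H, Function.Injective f) ∧
      Nat.card H = N * Nat.card Q ∧ Nat.card (Subgroup.center H) = N := by
  have hd : ((Module.finrank ℂ W : ℕ) : ℂ) ≠ 0 := by
    exact_mod_cast (finrank_pos hα).ne'
  refine ⟨HH hN hα, inferInstance, instFiniteHH hN hα,
    ⟨(repH hN hα).character,
      Cfsg.Agent.Lib.CharT.Transfer.isIrrCharacter_character _ (repH_irreducible hN hα)⟩,
    ?_, ?_, ?_, card_HH hN hα, card_center_HH hN hα⟩
  · rintro ⟨_, z, hz, x, rfl⟩ h
    have h1 : LinearMap.trace ℂ W ((z : ℂ) • α x) = (Module.finrank ℂ W : ℂ) := by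
      have e1 : (repH hN hα).character ⟨_, z, hz, x, rfl⟩ = LinearMap.trace ℂ W ((z : ℂ) • α x) := by
        simp [Representation.character]
      have e2 : (repH hN hα).character 1 = (Module.finrank ℂ W : ℂ) := by
        simp [Representation.character]
      rw [← e1, ← e2]
      exact h
    have hx : x = 1 := by
      by_contra hx
      rw [map_smul, hα.tr x hx, smul_zero] at h1
      exact hd h1.symm
    subst hx
    rw [hα.one, map_smul, LinearMap.trace_one, smul_eq_mul] at h1
    have hz1 : (z : ℂ) = 1 := by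
      have h2 : ((z : ℂ) - 1) * (Module.finrank ℂ W : ℂ) = 0 := by
        rw [sub_mul, h1, one_mul, sub_self]
      exact sub_eq_zero.mp ((mul_eq_zero.mp h2).resolve_right hd)
    apply Subtype.ext
    ext1
    have hz' : z = 1 := Units.ext hz1
    subst hz'
    simp [hα.one]
  · have e2 : (repH hN hα).character 1 = (Module.finrank ℂ W : ℂ) := by
      simp [Representation.character]
    rw [index_center_HH, hα.card]
    show (⌊((repH hN hα).character 1).re⌋₊) ^ 2 = _
    rw [e2]
    simp
  · classical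
    have hmul : ∀ x y, ∃ (z : ℂˣ) (hz : z ^ N = 1),
        uH hN hα x * uH hN hα y = sH hN hα z hz * uH hN hα (x * y) := by
      intro x y
      obtain ⟨c, hc, h1⟩ := hα.mul x y
      let c' : ℂˣ := Units.mk0 c (root_ne_zero hN hc)
      have hc' : c' ^ N = 1 := by
        ext1
        simpa [c'] using hc
      refine ⟨c', hc', ?_⟩
      apply Subtype.ext
      ext1
      simpa [uH, sH, c'] using h1
    let f : Q →* HH hN hα ⧸ Subgroup.center (HH hN hα) :=
      { toFun := fun x => (QuotientGroup.mk (uH hN hα x) : HH hN hα ⧸ Subgroup.center (HH hN hα))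
        map_one' := by
          have : uH hN hα 1 = 1 := by
            apply Subtype.ext
            ext1
            simp [uH, hα.one]
          rw [this]
          rfl
        map_mul' := by
          intro x y
          obtain ⟨z, hz, h1⟩ := hmul x y
          rw [← QuotientGroup.mk_mul, h1, QuotientGroup.mk_mul]
          have : (QuotientGroup.mk (sH hN hα z hz) : HH hN hα ⧸ Subgroup.center (HH hN hα)) = 1 :=
            (QuotientGroup.eq_one_iff _).mpr (sH_central hN hα z hz)
          rw [this, one_mul] }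
    refine ⟨f, (injective_iff_map_eq_one f).mpr ?_⟩
    intro x hx
    have h1 : uH hN hα x ∈ Subgroup.center (HH hN hα) := (QuotientGroup.eq_one_iff _).mp hx
    obtain ⟨z, hz, h2⟩ := mem_center_HH hN hα h1
    have h3 : α x = (z : ℂ) • 1 := by
      have := congrArg (fun g : HH hN hα => g.1.val) h2
      simpa [uH, sH] using this
    exact eq_one_of_scalar hN hα h3

end Cfsg.Agent.Lib.CentralType.Final
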